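/-
Package A1 (`LemRankTwo`) of the team project S1431 (Bender-Glauberman Theorem 14.2 (d)-(g)):
the derived subgroup of a solvable group `N` of odd order centralizes an abelian normal Sylow
`p`-subgroup `S` of `N` of rank at most two (`p` odd).
-/
import Mathlib
import Cfsg.Agent.Lib.Helper24.BG.S1431Defs
import Cfsg.Agent.Lib.Helper1.RankTwoLin

set_option autoImplicit false

namespace Cfsg.Agent.Lib.Helper54.BG

open Cfsg Cfsg.Agent.Lib.Helper46 Cfsg.Agent.Lib.Helper1

universe u

/-- If two powers of `x` lie in a subgroup, so does the power of `x` by the gcd of the exponents. -/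
theorem pow_gcd_mem {G : Type*} [Group G] (K : Subgroup G) (x : G) (i j : ℕ)
    (hi : x ^ i ∈ K) (hj : x ^ j ∈ K) : x ^ Nat.gcd i j ∈ K := by
  have h1 : x ^ ((Nat.gcd i j : ℕ) : ℤ) = (x ^ i) ^ Nat.gcdA i j * (x ^ j) ^ Nat.gcdB i j := by
    rw [Nat.gcd_eq_gcd_ab i j, zpow_add, zpow_mul, zpow_mul, zpow_natCast, zpow_natCast]
  rw [← zpow_natCast, h1]
  exact K.mul_mem (K.zpow_mem hi _) (K.zpow_mem hj _)

/-- Package A1 of the S1431 team project. -/
theorem lemRankTwo : Cfsg.Agent.Lib.Helper24.BG31.LemRankTwo.{u} := by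
  intro G _ _ p _ hp S N hSyl hNS hsol hodd hcomm hr
  have hpp : p.Prime := Fact.out
  have hSN : S ≤ N := hSyl.1
  have hSp : IsPGroup p S := IsPGroup.of_card hSyl.2
  obtain ⟨φ, hφ⟩ := exists_linearization hp S N hSp hr hNS
  -- the centralizer of `S` inside `N`, a normal subgroup of `N`
  have hDn : ((Subgroup.centralizer (S : Set G)).subgroupOf N).Normal := by
    refine ⟨fun d hd n => ?_⟩
    rw [Subgroup.mem_subgroupOf] at hd ⊢
    rw [Subgroup.mem_centralizer_iff] at hd ⊢
    intro s hs
    have hn := hNS n.2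
    have h1 : (n : G)⁻¹ * s * (n : G) ∈ S := by
      have h2 := (Subgroup.mem_normalizer_iff''.mp hn s).mp hs
      exact h2
    have h3 := hd _ h1
    simp only [Subgroup.coe_mul, Subgroup.coe_inv]
    calc s * ((n : G) * (d : G) * (n : G)⁻¹)
        = (n : G) * (((n : G)⁻¹ * s * (n : G)) * (d : G)) * (n : G)⁻¹ := by group
      _ = (n : G) * ((d : G) * ((n : G)⁻¹ * s * (n : G))) * (n : G)⁻¹ := by rw [h3]
      _ = (n : G) * (d : G) * (n : G)⁻¹ * s := by group
  -- its index is prime to `p`
  have hSD : S.subgroupOf N ≤ (Subgroup.centralizer (S : Set G)).subgroupOf N := by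
    intro s hs
    rw [Subgroup.mem_subgroupOf] at hs ⊢
    rw [Subgroup.mem_centralizer_iff]
    intro t ht
    exact congrArg Subtype.val (hcomm.is_comm.comm ⟨t, ht⟩ ⟨(s : G), hs⟩)
  have hidx : ((Subgroup.centralizer (S : Set G)).subgroupOf N).index.Coprime p := by
    have h1 : ((Subgroup.centralizer (S : Set G)).subgroupOf N).index ∣ (S.subgroupOf N).index :=
      Subgroup.index_dvd_of_le hSD
    have h2 : Nat.card (S.subgroupOf N) * (S.subgroupOf N).index = Nat.card N :=
      Subgroup.card_mul_index _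
    have h3 : Nat.card (S.subgroupOf N) = Nat.card S :=
      Nat.card_congr (Subgroup.subgroupOfEquivOfLe hSN).toEquiv
    rw [h3, hSyl.2] at h2
    have h4 : (S.subgroupOf N).index = Nat.card N / p ^ (Nat.card N).factorization p :=
      (Nat.div_eq_of_eq_mul_right (pow_pos hpp.pos _) h2.symm).symm
    have h5 : Nat.Coprime p (S.subgroupOf N).index := by
      rw [h4]
      exact Nat.coprime_ordCompl hpp Nat.card_pos.ne'
    exact (h5.symm.coprime_dvd_left h1)
  -- the derived subgroup
  have hder : ⁅N, N⁆ = (commutator N).map N.subtype := by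
    rw [commutator_def, Subgroup.map_commutator, ← MonoidHom.range_eq_map, Subgroup.range_subtype]
  intro x hx
  rw [hder] at hx
  obtain ⟨x', hx', rfl⟩ := hx
  have : Group.IsSolvable N := hsol
  obtain ⟨n, hn⟩ := map_commutator_isPGroup hp hodd φ x' hx'
  obtain ⟨m, hm⟩ := pow_mem_centralizer_of_ker S N φ hφ (x' ^ p ^ n) hn
  have h1 : (N.subtype x') ^ (p ^ n * p ^ m) ∈ Subgroup.centralizer (S : Set G) := by
    rw [pow_mul]
    simpa using hm
  have h2 : (N.subtype x') ^ ((Subgroup.centralizer (S : Set G)).subgroupOf N).index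
      ∈ Subgroup.centralizer (S : Set G) := by
    have := hDn
    have h3 := Subgroup.pow_index_mem ((Subgroup.centralizer (S : Set G)).subgroupOf N) x'
    rw [Subgroup.mem_subgroupOf] at h3
    simpa using h3
  have h4 := pow_gcd_mem _ _ _ _ h1 h2
  have h5 : Nat.gcd (p ^ n * p ^ m) ((Subgroup.centralizer (S : Set G)).subgroupOf N).index = 1 := by
    rw [← pow_add]
    exact (Nat.Coprime.pow_left _ hidx.symm)
  rw [h5, pow_one] at h4
  exact h4

end Cfsg.Agent.Lib.Helper54.BG
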